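import Mathlib

/-! Definitions for the group-theoretic part of the farm S4125 (q-Baer groups). -/

set_option autoImplicit false

namespace Cfsg.Agent.Lib.Helper61.QB

/-- the class size of `x`, as index of the centraliser. -/
noncomputable abbrev idx {G : Type*} [Group G] (x : G) : ℕ := (Subgroup.centralizer ({x} : Set G)).index

/-- `x` has `q`-power order. -/
abbrev IsQ (q : ℕ) {G : Type*} [Group G] (x : G) : Prop := ∃ k : ℕ, orderOf x = q ^ k

/-- the `q`-Baer hypothesis. -/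
abbrev Baer (q : ℕ) (G : Type*) [Group G] : Prop :=
  ∀ x : G, IsQ q x → ∃ (r : ℕ) (a : ℕ), r.Prime ∧ idx x = r ^ a

/-- the subgroup generated by the quotients of two conjugates of `x`. -/
def diffSub {G : Type*} [Group G] (x : G) : Subgroup G :=
  Subgroup.closure {d | ∃ g h : G, d = (g * x * g⁻¹)⁻¹ * (h * x * h⁻¹)}

/-- hypotheses on `Γ = G / O_{q'}(G)`. -/
def SolvHyp (q p : ℕ) (Γ : Type*) [Group Γ] : Prop :=
  (∃ V : Subgroup Γ, V.Normal ∧ (∀ x ∈ V, ∀ y ∈ V, x * y = y * x) ∧ IsPGroup q V ∧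
    V.index.Coprime q ∧ ∀ v ∈ V, ∃ a : ℕ, idx v = p ^ a) ∧
  ∀ N : Subgroup Γ, N.Normal → (Nat.card N).Coprime q → N = ⊥

end Cfsg.Agent.Lib.Helper61.QB
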