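import Mathlib

/-! Definitions for the farm S4125 (q-Baer groups).  Lemma X: a `q'`-group `A` of linear maps of a
finite `F_q`-space all of whose orbits have `p`-power size is solvable. -/

set_option autoImplicit false

namespace Cfsg.Agent.Lib.Helper61.QB

universe u

/-- `A ≤ GL(V)` has order prime to `q` and all its point stabilisers have `p`-power index. -/
def Good (q p : ℕ) [Fact q.Prime] {V : Type u} [AddCommGroup V] [Module (ZMod q) V]
    (A : Subgroup (V ≃ₗ[ZMod q] V)) : Prop :=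
  (Nat.card A).Coprime q ∧ ∀ v : V, ∃ k : ℕ, (MulAction.stabilizer A v).index = p ^ k

/-- The induction hypothesis of Lemma X. -/
def IH (q p : ℕ) [Fact q.Prime] (n : ℕ) : Prop :=
  ∀ (W : Type u) [AddCommGroup W] [Module (ZMod q) W] [Finite W]
    (B : Subgroup (W ≃ₗ[ZMod q] W)), Good q p B → Nat.card W + Nat.card B < n → Group.IsSolvable B

/-- `P` is a Sylow `p`-subgroup of `A` (both subgroups of an ambient group). -/
def SylIn {G : Type*} [Group G] (p : ℕ) (P A : Subgroup G) : Prop :=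
  P ≤ A ∧ IsPGroup p P ∧ (P.relIndex A).Coprime p

/-- `N` is a subgroup of `A` normalised by `A`. -/
def NormIn {G : Type*} [Group G] (N A : Subgroup G) : Prop :=
  N ≤ A ∧ ∀ a ∈ A, ∀ n ∈ N, a * n * a⁻¹ ∈ N

/-- `P` and `A` have the same orbits on `V`. -/
def SameOrb {q : ℕ} [Fact q.Prime] {V : Type u} [AddCommGroup V] [Module (ZMod q) V]
    (P A : Subgroup (V ≃ₗ[ZMod q] V)) : Prop :=
  ∀ a ∈ A, ∀ v : V, ∃ π ∈ P, a v = π v

/-- `V` is irreducible under `P`. -/
def Irr {q : ℕ} [Fact q.Prime] {V : Type u} [AddCommGroup V] [Module (ZMod q) V]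
    (P : Subgroup (V ≃ₗ[ZMod q] V)) : Prop :=
  ∀ W : Submodule (ZMod q) V, (∀ π ∈ P, ∀ w ∈ W, π w ∈ W) → W = ⊥ ∨ W = ⊤

/-- no nontrivial element of `P` fixes a nonzero vector. -/
def Semireg {q : ℕ} [Fact q.Prime] {V : Type u} [AddCommGroup V] [Module (ZMod q) V]
    (P : Subgroup (V ≃ₗ[ZMod q] V)) : Prop :=
  ∀ π ∈ P, π ≠ 1 → ∀ v : V, π v = v → v = 0

/-- `V` is irreducible under the single map `β`. -/
def Irr1 {q : ℕ} [Fact q.Prime] {V : Type u} [AddCommGroup V] [Module (ZMod q) V]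
    (β : V ≃ₗ[ZMod q] V) : Prop :=
  ∀ W : Submodule (ZMod q) V, (∀ w ∈ W, β w ∈ W) → W = ⊥ ∨ W = ⊤

/-- `V = W 0 ⊕ ... ⊕ W (p-1)`, the summands are permuted by `P`, and cyclically by some element. -/
def Blocks {q : ℕ} [Fact q.Prime] {V : Type u} [AddCommGroup V] [Module (ZMod q) V] (p : ℕ)
    (P : Subgroup (V ≃ₗ[ZMod q] V)) (W : Fin p → Submodule (ZMod q) V) : Prop :=
  iSup W = ⊤ ∧ iSupIndep W ∧
    (∀ π ∈ P, ∃ σ : Equiv.Perm (Fin p), ∀ i, (W i).map (π : V →ₗ[ZMod q] V) = W (σ i)) ∧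
    ∃ π ∈ P, ∃ σ : Equiv.Perm (Fin p), orderOf σ = p ∧
      ∀ i, (W i).map (π : V →ₗ[ZMod q] V) = W (σ i)

/-- `GL(V)` is finite. -/
instance finiteGL {q : ℕ} {V : Type u} [AddCommGroup V] [Module (ZMod q) V] [Finite V] :
    Finite (V ≃ₗ[ZMod q] V) :=
  Finite.of_injective (fun f => (f : V → V)) DFunLike.coe_injective

section homs

variable {q : ℕ} [Fact q.Prime] {V : Type u} [AddCommGroup V] [Module (ZMod q) V]

/-- restriction of a group `S` of linear maps to an `S`-invariant subspace. -/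
noncomputable def resHom (S : Subgroup (V ≃ₗ[ZMod q] V)) (W : Submodule (ZMod q) V)
    (hW : ∀ a ∈ S, ∀ w ∈ W, a w ∈ W) : S →* (W ≃ₗ[ZMod q] W) where
  toFun a := LinearEquiv.ofLinearMap
    ((a.1 : V →ₗ[ZMod q] V).restrict (hW a.1 a.2))
    (((a.1⁻¹ : V ≃ₗ[ZMod q] V) : V →ₗ[ZMod q] V).restrict (hW a.1⁻¹ (S.inv_mem a.2)))
    (by ext w; simp [LinearMap.restrict_apply])
    (by ext w; simp [LinearMap.restrict_apply])
  map_one' := by ext w; simp [LinearMap.restrict_apply]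
  map_mul' a b := by ext w; simp [LinearMap.restrict_apply]

@[simp] theorem resHom_apply (S : Subgroup (V ≃ₗ[ZMod q] V)) (W : Submodule (ZMod q) V)
    (hW : ∀ a ∈ S, ∀ w ∈ W, a w ∈ W) (a : S) (w : W) :
    ((resHom S W hW a w : W) : V) = a.1 (w : V) := by
  simp [resHom, LinearMap.restrict_apply]

/-- action of a group `S` of linear maps on the quotient by an `S`-invariant subspace. -/
noncomputable def quotHom (S : Subgroup (V ≃ₗ[ZMod q] V)) (W : Submodule (ZMod q) V)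
    (hW : ∀ a ∈ S, ∀ w ∈ W, a w ∈ W) : S →* ((V ⧸ W) ≃ₗ[ZMod q] (V ⧸ W)) where
  toFun a := LinearEquiv.ofLinearMap
    (W.mapQ W (a.1 : V →ₗ[ZMod q] V) (fun w hw => hW a.1 a.2 w hw))
    (W.mapQ W ((a.1⁻¹ : V ≃ₗ[ZMod q] V) : V →ₗ[ZMod q] V)
      (fun w hw => hW a.1⁻¹ (S.inv_mem a.2) w hw))
    (by ext w; simp)
    (by ext w; simp)
  map_one' := by ext w; simp
  map_mul' a b := by
    ext w
    obtain ⟨v, rfl⟩ := Submodule.Quotient.mk_surjective W w
    simp

@[simp] theorem quotHom_mk (S : Subgroup (V ≃ₗ[ZMod q] V)) (W : Submodule (ZMod q) V)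
    (hW : ∀ a ∈ S, ∀ w ∈ W, a w ∈ W) (a : S) (v : V) :
    quotHom S W hW a (Submodule.Quotient.mk v) = Submodule.Quotient.mk (a.1 v) := by
  simp [quotHom]

end homs

/-- existence of Sylow subgroups in the `SylIn` form. -/
theorem exists_sylIn {G : Type*} [Group G] (p : ℕ) [Fact p.Prime] (A : Subgroup G) [Finite A] :
    ∃ P : Subgroup G, SylIn p P A := by
  obtain ⟨P⟩ : Nonempty (Sylow p A) := inferInstance
  refine ⟨(P : Subgroup A).map A.subtype, Subgroup.map_subtype_le _, ?_, ?_⟩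
  · exact P.2.map _
  · have h1 : ((P : Subgroup A).map A.subtype).relIndex A = (P : Subgroup A).index := by
      rw [Subgroup.relIndex, Subgroup.subgroupOf,
        Subgroup.comap_map_eq_self_of_injective A.subtype_injective]
    rw [h1, Nat.coprime_comm, Nat.Prime.coprime_iff_not_dvd Fact.out]
    exact P.not_dvd_index

end Cfsg.Agent.Lib.Helper61.QB
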