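import Mathlib
import Cfsg.Prelude.Def_CaseTheorems
import Cfsg.Agent.Lib.Helper61.QB.Defs
import Cfsg.Agent.Lib.Helper16.QB.N5a
import Cfsg.Agent.Lib.Helper16.QB.N5b
import Cfsg.Agent.Lib.Helper4.QB.X4a
import Cfsg.Agent.Lib.Helper4.QB.X4c
import Cfsg.Agent.Lib.Helper4.QB.X4d
import Cfsg.Agent.Lib.Helper4.QB.X4o
import Cfsg.Agent.Lib.Helper4.QB.X5a
import Cfsg.Agent.Lib.Helper4.QB.X5b
import Cfsg.Agent.Lib.Helper4.QB.X5y
import Cfsg.Agent.Lib.Helper4.QB.X5z
import Cfsg.Agent.Lib.Helper63.QB.X1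
import Cfsg.Agent.Lib.Helper63.QB.X3
import Cfsg.Agent.Lib.Helper96.QB.X6
import Cfsg.Agent.Lib.Helper96.QB.X7f
import Cfsg.Agent.Lib.Helper96.QB.X7g
import Cfsg.Agent.Lib.Helper98.QB.X7a
import Cfsg.Agent.Lib.Helper98.QB.X7b
import Cfsg.Agent.Lib.Helper98.QB.X7c
import Cfsg.Agent.Lib.Helper98.QB.X7d
import Cfsg.Agent.Lib.Helper98.QB.X7e
import Cfsg.Agent.Lib.Helper98.QB.X7h

/-! Lemma X (farm S4125): a `q'`-group of linear maps of a finite `F_q`-space all of whose point stabilisers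
have `p`-power index is solvable.  Assembly of the pieces of the farm. -/

set_option autoImplicit false

namespace Cfsg.Agent.Lib.Helper61.QB

universe u

variable {q p : ℕ} [Fact q.Prime] [Fact p.Prime] {V : Type u} [AddCommGroup V] [Module (ZMod q) V]
  [Finite V]

/-- [X4] -/
theorem solvable_of_blocks [Nontrivial V] {A P : Subgroup (V ≃ₗ[ZMod q] V)} (hA : Good q p A)
    (ih : IH.{u} q p (Nat.card V + Nat.card A)) (hPA : P ≤ A) (hPp : IsPGroup p P)
    (hs : SameOrb P A) (W : Fin p → Submodule (ZMod q) V) (hW : Blocks p P W) :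
    Group.IsSolvable A := by
  obtain ⟨θ, hθ⟩ := Cfsg.Agent.Lib.Helper4.QB.exists_blockHom hPA hs W hW
  have h1 := Cfsg.Agent.Lib.Helper4.QB.solvable_ker_blockHom hA ih W hW.1 (fun i => ((Cfsg.Agent.Lib.Helper4.QB.blocks_ne W hW).1 i).2) θ hθ
  have h2 := Cfsg.Agent.Lib.Helper4.QB.solvable_range_blockHom hPA hPp hs W hW θ hθ
  exact Group.isSolvable_of_ker_le_range (θ.ker.subtype) θ.rangeRestrict (by
    intro x hx
    rw [MonoidHom.mem_ker] at hx
    have : θ x = 1 := by
      have := congrArg Subtype.val hx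
      simpa using this
    exact ⟨⟨x, this⟩, rfl⟩)

/-! ### assemblies (helper61) -/

theorem mem_zpowers_coe {G : Type*} [Group G] {P : Subgroup G} {b x : P}
    (h : x ∈ Subgroup.zpowers b) : (x : G) ∈ Subgroup.zpowers (b : G) := by
  obtain ⟨n, rfl⟩ := Subgroup.mem_zpowers_iff.1 h
  exact Subgroup.mem_zpowers_iff.2 ⟨n, by simp⟩

theorem blocks_or_small [Nontrivial V] {P : Subgroup (V ≃ₗ[ZMod q] V)} (hq2 : q ≠ 2)
    (hP : IsPGroup p P) (hirr : Irr P)
    (hcase : (∃ n : ℕ, Nonempty (P ≃* QuaternionGroup n)) ∨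
      (∃ n : ℕ, Nonempty (P ≃* DihedralGroup n)) ∨ Cfsg.IsQuasiDihedral P) :
    (∃ W : Fin p → Submodule (ZMod q) V, Blocks p P W) ∨ Module.finrank (ZMod q) V ≤ 2 := by
  obtain rfl : p = 2 := Cfsg.Agent.Lib.Helper4.QB.eq_two_of_case hP hcase
  obtain ⟨b, s, m, k, hb, hs, hk, hs2, hgen⟩ := Cfsg.Agent.Lib.Helper4.QB.exists_cyclic_index_two hP hcase
  have hs' : (s : V ≃ₗ[ZMod q] V) * b * (s : V ≃ₗ[ZMod q] V)⁻¹ = (b : V ≃ₗ[ZMod q] V) ^ k := by
    have := congrArg Subtype.val hs
    simpa using this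
  have hs2' : (s : V ≃ₗ[ZMod q] V) * s ∈ Subgroup.zpowers (b : V ≃ₗ[ZMod q] V) := by
    have := mem_zpowers_coe hs2
    simpa using this
  rcases Cfsg.Agent.Lib.Helper4.QB.blocks_or_irr1 hirr b.1 s.1 b.2 s.2 (by rw [hs']; exact Subgroup.npow_mem_zpowers _ _) hs2'
    (by
      intro x hx
      rcases hgen ⟨x, hx⟩ with h | h
      · exact Or.inl (mem_zpowers_coe h)
      · right
        have := mem_zpowers_coe h
        simpa using this) with h | h
  · exact Or.inl h
  · right
    have hb' : orderOf (b : V ≃ₗ[ZMod q] V) = 2 ^ m := by rw [Subgroup.orderOf_coe, hb]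
    have hqodd : Odd q := (Fact.out : q.Prime).odd_of_ne_two hq2
    have hq1 : 1 ≤ q ^ 2 := Nat.one_le_pow _ _ (Fact.out : q.Prime).pos
    have hdvd : 2 ^ m ∣ q ^ 2 - 1 := by
      by_cases hm : 2 ≤ m
      · refine Cfsg.Agent.Lib.Helper16.QB.two_pow_dvd b.1 s.1 h hm hb' hs' hk ?_
        obtain ⟨n, hn⟩ := Subgroup.mem_zpowers_iff.1 hs2'
        rw [← hn]
        exact (Commute.refl _).zpow_left n
      · have h2 : 2 ∣ q ^ 2 - 1 := by
          have : Odd (q ^ 2) := hqodd.pow
          obtain ⟨t, ht⟩ := this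
          exact ⟨t, by omega⟩
        have hm' : m = 0 ∨ m = 1 := by omega
        rcases hm' with rfl | rfl
        · simp
        · simpa using h2
    apply Cfsg.Agent.Lib.Helper16.QB.finrank_le_two_of_pow b.1 h
    have : q ^ 2 = (q ^ 2 - 1) + 1 := by omega
    rw [this, pow_succ, orderOf_dvd_iff_pow_eq_one.1 (hb' ▸ hdvd), one_mul]

theorem solvable_of_cyclic [Nontrivial V] {A P : Subgroup (V ≃ₗ[ZMod q] V)} (hA : Good q p A)
    (ih : IH.{u} q p (Nat.card V + Nat.card A)) (hP : SylIn p P A) (hcyc : IsCyclic P)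
    (hirr : Irr P) : Group.IsSolvable A := by
  have hs := Cfsg.Agent.Lib.Helper63.QB.sameOrb_of_sylIn hA hP
  have hcomm : ∀ x ∈ P, ∀ y ∈ P, x * y = y * x := by
    intro x hx y hy
    have hc := hcyc.isMulCommutative
    have := mul_comm' (⟨x, hx⟩ : P) ⟨y, hy⟩
    exact congrArg Subtype.val this
  have hsr := Cfsg.Agent.Lib.Helper98.QB.semireg_of_comm hirr hcomm
  have hPsolv : Group.IsSolvable P := by
    exact Group.isSolvable_of_comm (fun x y => Subtype.ext (hcomm x.1 x.2 y.1 y.2))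
  by_cases hP1 : P = ⊥
  · have : A = ⊥ := by
      rw [eq_bot_iff]
      intro a ha
      rw [Subgroup.mem_bot]
      ext v
      obtain ⟨π, hπ, h⟩ := hs a ha v
      rw [hP1, Subgroup.mem_bot] at hπ
      rw [h, hπ]
    rw [this]
    infer_instance
  by_cases hp2 : p = 2
  · subst hp2
    obtain ⟨z, hz, hz1, hzc⟩ := Cfsg.Agent.Lib.Helper98.QB.exists_central_of_two hP1 hP.2.1 hsr
    have := Cfsg.Agent.Lib.Helper98.QB.eq_of_normalizer_le_centralizer hA hP
      (Cfsg.Agent.Lib.Helper98.QB.normalizer_centralizes hP hcyc z hz hz1 (fun a _ => hzc a))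
    rw [this]
    exact hPsolv
  by_contra hns
  have hsimple : ∀ N : Subgroup (V ≃ₗ[ZMod q] V), NormIn N A → N = ⊥ ∨ N = A := by
    intro N hN
    by_contra hcon
    push Not at hcon
    have hlt : Nat.card N < Nat.card A := by
      have hlt' : N < A := lt_of_le_of_ne hN.1 hcon.2
      have := Set.ncard_lt_ncard (SetLike.coe_ssubset_coe.2 hlt') (Set.toFinite _)
      rw [← Nat.card_coe_set_eq, ← Nat.card_coe_set_eq] at this
      exact this
    have hNs : Group.IsSolvable N := ih V N (Cfsg.Agent.Lib.Helper63.QB.good_of_normIn hA hN) (by omega)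
    obtain ⟨z, hz, hz1, hzn⟩ := Cfsg.Agent.Lib.Helper98.QB.exists_normal_order_p hA hP hcyc hN hcon.1 hNs
    exact hns (Cfsg.Agent.Lib.Helper98.QB.solvable_of_normal_order_p hA ih hP hcyc z hz hz1 hzn)
  obtain ⟨v, hv⟩ := exists_ne (0 : V)
  rcases Cfsg.Agent.Lib.Helper96.QB.two_trans_or_solvable hA hP hcyc hsr hs hsimple v hv with h | h
  · exact hns h
  · exact Cfsg.Agent.Lib.Helper96.QB.false_of_two_trans hp2 hA.1 hP.1 hP.2.1 hP1 hsr hs v hv h

theorem lemmaX_aux (q p : ℕ) [Fact q.Prime] [Fact p.Prime] (n : ℕ) : IH.{u} q p n := by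
  induction n using Nat.strong_induction_on with
  | _ n IHn =>
    intro V _ _ _ A hA hn
    have ih : IH.{u} q p (Nat.card V + Nat.card A) := IHn _ hn
    rcases subsingleton_or_nontrivial V with hV | hV
    · have : Subsingleton (V ≃ₗ[ZMod q] V) := ⟨fun a b => by ext v; exact Subsingleton.elim _ _⟩
      have : Subsingleton A := inferInstance
      infer_instance
    obtain ⟨P, hP⟩ := exists_sylIn p A
    have hs := Cfsg.Agent.Lib.Helper63.QB.sameOrb_of_sylIn hA hP
    by_cases hirr : Irr P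
    · by_cases hcyc : IsCyclic P
      · exact solvable_of_cyclic hA ih hP hcyc hirr
      have hbs : (∃ W : Fin p → Submodule (ZMod q) V, Blocks p P W) ∨
          Module.finrank (ZMod q) V ≤ 2 := by
        by_cases hcase : (∃ n : ℕ, Nonempty (P ≃* QuaternionGroup n)) ∨
            (∃ n : ℕ, Nonempty (P ≃* DihedralGroup n)) ∨ Cfsg.IsQuasiDihedral P
        · have hp2 : p = 2 := Cfsg.Agent.Lib.Helper4.QB.eq_two_of_case hP.2.1 hcase
          have hq2 : q ≠ 2 := by
            intro hq2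
            -- `P` is a nontrivial 2-group, so `2 ∣ |A|`
            have hP1 : Nat.card P ≠ 1 := by
              intro h1
              have : Subsingleton P := (Nat.card_eq_one_iff_unique.1 h1).1
              exact hcyc inferInstance
            obtain ⟨k, hk⟩ := IsPGroup.iff_card.1 hP.2.1
            have hk0 : k ≠ 0 := by
              rintro rfl
              exact hP1 (by simpa using hk)
            have h2P : 2 ∣ Nat.card P := by
              rw [hk, hp2]
              exact dvd_pow_self 2 hk0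
            have h2A : 2 ∣ Nat.card A := h2P.trans (Subgroup.card_dvd_of_le hP.1)
            have h3 := hA.1
            have h4 : q ∣ Nat.card A := hq2 ▸ h2A
            exact (Nat.Prime.coprime_iff_not_dvd (Fact.out : q.Prime)).1 h3.symm h4
          exact blocks_or_small hq2 hP.2.1 hirr hcase
        · push Not at hcase
          exact Or.inl (Cfsg.Agent.Lib.Helper4.QB.blocks_of_S3380 hP.2.1 hirr hcyc (fun n => by simpa using hcase.1 n)
            (fun n => by simpa using hcase.2.1 n) hcase.2.2)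
      rcases hbs with ⟨W, hW⟩ | hd
      · exact solvable_of_blocks hA ih hP.1 hP.2.1 hs W hW
      · exact Cfsg.Agent.Lib.Helper96.QB.solvable_of_finrank_le_two hA hd
    · unfold Irr at hirr
      push Not at hirr
      obtain ⟨W, hW, h0, h1⟩ := hirr
      refine Cfsg.Agent.Lib.Helper63.QB.solvable_of_invariant hA ih W ?_ h0 h1
      intro a ha w hw
      obtain ⟨π, hπ, h⟩ := hs a ha w
      rw [h]
      exact hW π hπ w hw

/-- **Lemma X**. -/
theorem lemmaX (q p : ℕ) [Fact q.Prime] [Fact p.Prime] {V : Type u} [AddCommGroup V]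
    [Module (ZMod q) V] [Finite V] (A : Subgroup (V ≃ₗ[ZMod q] V)) (hA : Good q p A) :
    Group.IsSolvable A :=
  lemmaX_aux q p (Nat.card V + Nat.card A + 1) V A hA (Nat.lt_succ_self _)

end Cfsg.Agent.Lib.Helper61.QB
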